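import Mathlib.Analysis.Complex.Basic
import Mathlib.Analysis.Calculus.FDeriv.Mul
import Mathlib.Analysis.Calculus.FDeriv.Add

/-!
# Coherence on a space embedded in `ℂⁿ` from coherence on `ℂⁿ`

`T` is a topological space with a map `τ : T → ℂⁿ` and a class of "holomorphic germs of functions",
which are exactly the germs `H ∘ τ`; the germs `H` with `H ∘ τ = 0` are the combinations of finitely
many functions `f l`.  If the relation sheaves on `ℂⁿ` are locally finitely generated (Oka), so are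
those on `T`.
-/

set_option autoImplicit false

open Topology Filter

namespace Groth.Agent.Gaga.H985.OkaLocal

/-- `c` is holomorphic near `y`. -/
def HolAt {n : ℕ} (c : (Fin n → ℂ) → ℂ) (y : Fin n → ℂ) : Prop :=
  ∀ᶠ z in 𝓝 y, DifferentiableAt ℂ c z

/-- Oka's coherence theorem on `ℂⁿ`, in terms of functions. -/
def OkaProp (n : ℕ) : Prop :=
  ∀ (a b : ℕ) (F : Fin b → Fin a → (Fin n → ℂ) → ℂ) (U : Set (Fin n → ℂ)) (x : Fin n → ℂ),
    IsOpen U → x ∈ U → (∀ i j, DifferentiableOn ℂ (F i j) U) →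
    ∃ (V : Set (Fin n → ℂ)) (s : ℕ) (G : Fin a → Fin s → (Fin n → ℂ) → ℂ),
      IsOpen V ∧ x ∈ V ∧ V ⊆ U ∧ (∀ j k, DifferentiableOn ℂ (G j k) V) ∧
      (∀ i k, ∀ z ∈ V, ∑ j, F i j z * G j k z = 0) ∧
      ∀ y ∈ V, ∀ c : Fin a → (Fin n → ℂ) → ℂ, (∀ j, HolAt (c j) y) →
        (∀ i, ∀ᶠ z in 𝓝 y, ∑ j, F i j z * c j z = 0) →
        ∃ e : Fin s → (Fin n → ℂ) → ℂ, (∀ k, HolAt (e k) y) ∧
          ∀ j, ∀ᶠ z in 𝓝 y, c j z = ∑ k, G j k z * e k z

variable {n : ℕ}

theorem HolAt.congr {c d : (Fin n → ℂ) → ℂ} {y : Fin n → ℂ} (h : HolAt c y) (e : c =ᶠ[𝓝 y] d) :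
    HolAt d y := by
  filter_upwards [h, e.eventually_nhds] with z h1 h2
  exact h1.congr_of_eventuallyEq (EventuallyEq.symm h2)

theorem holAt_of_differentiableOn {c : (Fin n → ℂ) → ℂ} {V : Set (Fin n → ℂ)} (hV : IsOpen V)
    (h : DifferentiableOn ℂ c V) {y : Fin n → ℂ} (hy : y ∈ V) : HolAt c y := by
  filter_upwards [hV.mem_nhds hy] with z hz
  exact h.differentiableAt (hV.mem_nhds hz)

theorem HolAt.exists_open {c : (Fin n → ℂ) → ℂ} {y : Fin n → ℂ} (h : HolAt c y) :
    ∃ V, IsOpen V ∧ y ∈ V ∧ DifferentiableOn ℂ c V := by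
  obtain ⟨V, hV, hV', hy⟩ := eventually_nhds_iff.mp h
  exact ⟨V, hV', hy, fun z hz => (hV z hz).differentiableWithinAt⟩

theorem HolAt.neg {c : (Fin n → ℂ) → ℂ} {y : Fin n → ℂ} (h : HolAt c y) :
    HolAt (fun z => - c z) y := h.mono fun _ hz => hz.neg

theorem HolAt.add {c d : (Fin n → ℂ) → ℂ} {y : Fin n → ℂ} (h : HolAt c y) (h' : HolAt d y) :
    HolAt (fun z => c z + d z) y := (h.and h').mono fun _ hz => hz.1.add hz.2

theorem HolAt.mul {c d : (Fin n → ℂ) → ℂ} {y : Fin n → ℂ} (h : HolAt c y) (h' : HolAt d y) :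
    HolAt (fun z => c z * d z) y := (h.and h').mono fun _ hz => hz.1.mul hz.2

theorem holAt_const (c : ℂ) (y : Fin n → ℂ) : HolAt (fun _ => c) y :=
  Eventually.of_forall fun _ => differentiableAt_const c

theorem holAt_sum {ι : Type*} (s : Finset ι) {c : ι → (Fin n → ℂ) → ℂ} {y : Fin n → ℂ}
    (h : ∀ i ∈ s, HolAt (c i) y) : HolAt (fun z => ∑ i ∈ s, c i z) y := by
  classical
  induction s using Finset.induction_on with
  | empty => simpa using holAt_const 0 y
  | insert i s hi ih =>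
    simp_rw [Finset.sum_insert hi]
    exact (h i (Finset.mem_insert_self i s)).add (ih fun j hj => h j (Finset.mem_insert_of_mem hj))

/-- Coherence on `T` from coherence on `ℂⁿ`. -/
theorem oka_of_embedding (hOka : OkaProp n) {T : Type*} [TopologicalSpace T]
    (P : (T → ℂ) → T → Prop) (τ : T → (Fin n → ℂ)) (U : Set T) (hU : IsOpen U)
    (hτ : ContinuousOn τ U) {r : ℕ} (f : Fin r → (Fin n → ℂ) → ℂ)
    (hf : ∀ l, Differentiable ℂ (f l)) (hf0 : ∀ l, ∀ z ∈ U, f l (τ z) = 0)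
    (hex : ∀ y ∈ U, ∀ g : T → ℂ, P g y → ∃ H, HolAt H (τ y) ∧ ∀ᶠ z in 𝓝 y, g z = H (τ z))
    (hP : ∀ y ∈ U, ∀ H, HolAt H (τ y) → P (fun z => H (τ z)) y)
    (hker : ∀ y ∈ U, ∀ H, HolAt H (τ y) → (∀ᶠ z in 𝓝 y, H (τ z) = 0) →
      ∃ D : Fin r → (Fin n → ℂ) → ℂ, (∀ l, HolAt (D l) (τ y)) ∧
        ∀ᶠ w in 𝓝 (τ y), H w = ∑ l, D l w * f l w)
    (x : T) (hx : x ∈ U) (a b : ℕ) (h : Fin b → Fin a → T → ℂ) (hh : ∀ i j, P (h i j) x) :
    ∃ (V : Set T) (s : ℕ) (g : Fin a → Fin s → T → ℂ), IsOpen V ∧ x ∈ V ∧ V ⊆ U ∧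
      (∀ j k, ∀ y ∈ V, P (g j k) y) ∧ (∀ i k, ∀ z ∈ V, ∑ j, h i j z * g j k z = 0) ∧
      ∀ y ∈ V, ∀ c : Fin a → T → ℂ, (∀ j, P (c j) y) →
        (∀ i, ∀ᶠ z in 𝓝 y, ∑ j, h i j z * c j z = 0) →
        ∃ e : Fin s → T → ℂ, (∀ k, P (e k) y) ∧
          ∀ j, ∀ᶠ z in 𝓝 y, c j z = ∑ k, g j k z * e k z := by
  classical
  choose H hH hHeq using fun i j => hex x hx (h i j) (hh i j)
  -- a common open set on which all the `H i j` are differentiable
  have h1 : ∀ᶠ w in 𝓝 (τ x), ∀ i j, DifferentiableAt ℂ (H i j) w :=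
    eventually_all.mpr fun i => eventually_all.mpr fun j => hH i j
  obtain ⟨O, hO, hOo, hxO⟩ := eventually_nhds_iff.mp h1
  -- the matrix on `ℂⁿ`: the columns `H i ·` and the `f l e_i`
  let F : Fin b → (Fin a ⊕ (Fin r × Fin b)) → (Fin n → ℂ) → ℂ := fun i j w =>
    Sum.elim (fun j => H i j w) (fun p => if p.2 = i then - f p.1 w else 0) j
  let N := Fintype.card (Fin a ⊕ (Fin r × Fin b))
  let ε : (Fin a ⊕ (Fin r × Fin b)) ≃ Fin N := Fintype.equivFin _
  obtain ⟨V, s, G, hV, hxV, hVO, hG, hFG, hgen⟩ := hOka N b (fun i j => F i (ε.symm j)) O (τ x) hOo hxO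
    (fun i j => by
      intro w hw
      refine DifferentiableAt.differentiableWithinAt ?_
      change DifferentiableAt ℂ (fun w => F i (ε.symm j) w) w
      rcases ε.symm j with j' | p
      · exact hO w hw i j'
      · by_cases hp : p.2 = i
        · simp only [F, Sum.elim_inr, if_pos hp]
          exact (hf p.1 w).neg
        · simp only [F, Sum.elim_inr, if_neg hp]
          exact differentiableAt_const _)
  -- the open set of `T`
  have h2 : ∀ᶠ z in 𝓝 x, z ∈ U ∧ τ z ∈ V ∧ ∀ i j, h i j z = H i j (τ z) := by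
    have h3 : ∀ᶠ z in 𝓝 x, z ∈ U := hU.mem_nhds hx
    refine h3.and (((hτ.continuousAt (hU.mem_nhds hx)).eventually
      (hV.mem_nhds hxV)).and ?_)
    exact eventually_all.mpr fun i => eventually_all.mpr fun j => hHeq i j
  obtain ⟨V', hV', hV'o, hxV'⟩ := eventually_nhds_iff.mp h2
  refine ⟨V', s, fun j k z => G (ε (Sum.inl j)) k (τ z), hV'o, hxV', fun z hz => (hV' z hz).1,
    ?_, ?_, ?_⟩
  · intro j k y hy
    exact hP y (hV' y hy).1 _ (holAt_of_differentiableOn hV (hG _ k) (hV' y hy).2.1)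
  · intro i k z hz
    have h3 := hFG i k (τ z) (hV' z hz).2.1
    rw [← ε.sum_comp, Fintype.sum_sum_type] at h3
    simp only [Equiv.symm_apply_apply, F, Sum.elim_inl, Sum.elim_inr] at h3
    rw [Finset.sum_eq_zero (s := (Finset.univ : Finset (Fin r × Fin b))), add_zero] at h3
    · rw [← h3]
      exact Finset.sum_congr rfl fun j _ => by rw [(hV' z hz).2.2 i j]
    · intro p _
      by_cases hp : p.2 = i
      · rw [if_pos hp, hf0 p.1 z (hV' z hz).1, neg_zero, zero_mul]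
      · rw [if_neg hp, zero_mul]
  · intro y hy c hc hrel
    have hyU := (hV' y hy).1
    choose C hC hCeq using fun j => hex y hyU (c j) (hc j)
    have hτy : ContinuousAt τ y := hτ.continuousAt (hU.mem_nhds hyU)
    -- the relation upstairs, modulo the `f l`
    have h4 : ∀ i, ∃ D : Fin r → (Fin n → ℂ) → ℂ, (∀ l, HolAt (D l) (τ y)) ∧
        ∀ᶠ w in 𝓝 (τ y), ∑ j, H i j w * C j w = ∑ l, D l w * f l w := by
      intro i
      refine hker y hyU _ (holAt_sum _ fun j _ => ?_) ?_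
      · refine HolAt.mul ?_ (hC j)
        filter_upwards [hOo.mem_nhds (hVO (hV' y hy).2.1)] with w hw
        exact hO w hw i j
      · filter_upwards [hrel i, hV'o.mem_nhds hy, eventually_all.mpr fun j => hCeq j]
          with z h5 h6 h7
        rw [← h5]
        exact Finset.sum_congr rfl fun j _ => by rw [(hV' z h6).2.2 i j, h7 j]
    choose D hD hDeq using h4
    let c' : Fin N → (Fin n → ℂ) → ℂ := fun j w =>
      Sum.elim (fun j => C j w) (fun p : Fin r × Fin b => D p.2 p.1 w) (ε.symm j)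
    obtain ⟨e, he, heq⟩ := hgen (τ y) (hV' y hy).2.1 c' (fun j => by
        change HolAt (fun w => c' j w) (τ y)
        simp only [c']
        rcases ε.symm j with j' | p
        · exact hC j'
        · exact hD p.2 p.1) (fun i => by
        filter_upwards [hDeq i] with w hw
        rw [← ε.sum_comp, Fintype.sum_sum_type]
        simp only [Equiv.symm_apply_apply, F, c', Sum.elim_inl, Sum.elim_inr]
        rw [hw, Fintype.sum_prod_type, ← Finset.sum_add_distrib]
        refine Finset.sum_eq_zero fun l _ => ?_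
        rw [Finset.sum_eq_single i]
        · rw [if_pos rfl]; ring
        · intro i' _ hi'
          rw [if_neg hi', zero_mul]
        · intro hi'
          exact absurd (Finset.mem_univ _) hi')
    refine ⟨fun k z => e k (τ z), fun k => hP y hyU _ (he k), fun j => ?_⟩
    filter_upwards [hCeq j, hτy.eventually (heq (ε (Sum.inl j)))] with z h8 h9
    rw [h8]
    simpa only [c', Equiv.symm_apply_apply, Sum.elim_inl] using h9

end Groth.Agent.Gaga.H985.OkaLocal
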