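import Groth.Agent.Gaga.H990.ChartAt
import Groth.Agent.Gaga.H985.OkaLocal
import Mathlib.Analysis.Calculus.FDeriv.Pow
import Mathlib.Analysis.Calculus.Deriv.Inv

/-!
# Holomorphic functions in an affine chart

`X` over `ℂ`, `U` an affine open, `t₁, …, tₙ` generators of `Γ(X, U)`, `τ = (t₁, …, tₙ) : X(ℂ) → ℂⁿ`.
Germs of holomorphic functions at a point of `U(ℂ)` are exactly the germs `H ∘ τ`.
-/

set_option autoImplicit false
open CategoryTheory AlgebraicGeometry Topology TopologicalSpace Opposite Filter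
open Groth.Agent.An.H863.PtsBasic Groth.Agent.An.H863.PtsCont
open Groth.Agent.Gaga.H990.ChartAt Groth.Agent.Gaga.H985.OkaLocal

noncomputable section

namespace Groth.Agent.Gaga.H985.Chart

variable {X : Scheme.{0}} [X.Over An.SC] {n : ℕ}

/-- The chart map (with value junk outside `U`). -/
def tau (U : X.Opens) (t : Fin n → Γ(X, U)) (z : An.Pts X) : Fin n → ℂ := fun i => evAt z U (t i)

lemma continuousAt_tau (U : X.Opens) (t : Fin n → Γ(X, U)) {z : An.Pts X} (hz : z.pt ∈ U) :
    ContinuousAt (tau U t) z := continuousAt_pi_evAt U t hz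

lemma continuousOn_tau (U : X.Opens) (t : Fin n → Γ(X, U)) :
    ContinuousOn (tau U t) {z | z.pt ∈ U} := fun _ hz =>
  (continuousAt_tau U t hz).continuousWithinAt

/-- Polynomials are holomorphic. -/
lemma differentiable_eval (P : MvPolynomial (Fin n) ℂ) :
    Differentiable ℂ (fun w : Fin n → ℂ => MvPolynomial.eval w P) := by
  induction P using MvPolynomial.induction_on with
  | C c => simp
  | add p q hp hq => simpa using hp.fun_add hq
  | mul_X p i hp =>
    simpa using hp.fun_mul (ContinuousLinearMap.proj (R := ℂ) (φ := fun _ : Fin n => ℂ)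
      i).differentiable

lemma holAt_eval (P : MvPolynomial (Fin n) ℂ) (w : Fin n → ℂ) :
    HolAt (fun w : Fin n → ℂ => MvPolynomial.eval w P) w :=
  Eventually.of_forall fun z => differentiable_eval P z

/-- Values of a polynomial in the sections `t`. -/
lemma evAt_eval₂ (U : X.Opens) (t : Fin n → Γ(X, U)) {z : An.Pts X} (hz : z.pt ∈ U)
    (P : MvPolynomial (Fin n) ℂ) :
    evAt z U (MvPolynomial.eval₂Hom (strU U) t P) = MvPolynomial.eval (tau U t z) P := by
  induction P using MvPolynomial.induction_on with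
  | C c => rw [MvPolynomial.coe_eval₂Hom, MvPolynomial.eval₂_C, evAt_of_mem hz, ev_strU,
      MvPolynomial.eval_C]
  | add p q hp hq => rw [map_add, evAt_add, hp, hq, map_add]
  | mul_X p i hp =>
    rw [map_mul, evAt_mul, hp, map_mul, MvPolynomial.eval_X, MvPolynomial.coe_eval₂Hom,
      MvPolynomial.eval₂_X]
    rfl

variable {U : X.Opens} (hUa : IsAffineOpen U) {t : Fin n → Γ(X, U)}
  (ht : Function.Surjective (MvPolynomial.eval₂Hom (strU U) t))

include hUa ht

/-- A section of `O_X` near a point of the chart is, near the point, `H ∘ τ` with `H` holomorphic. -/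
lemma exists_holAt_section (W : X.Opens) (f : Γ(X, W)) {y : An.Pts X} (hyU : y.pt ∈ U)
    (hyW : y.pt ∈ W) :
    ∃ H, HolAt H (tau U t y) ∧ ∀ᶠ z in 𝓝 y, evAt z W f = H (tau U t z) := by
  obtain ⟨h, hh, hx⟩ := hUa.exists_basicOpen_le (V := W) ⟨y.pt, hyW⟩ hyU
  change y.pt ∈ X.basicOpen h at hx
  have := hUa.isLocalization_basicOpen h
  obtain ⟨k, a, ha⟩ := IsLocalization.Away.surj h (X.presheaf.map (homOfLE hh).op f)
  have hle : X.basicOpen h ≤ U := X.basicOpen_le h
  have hres : ∀ g : Γ(X, U), algebraMap Γ(X, U) Γ(X, X.basicOpen h) g =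
      X.presheaf.map (homOfLE hle).op g := fun g => rfl
  have key : ∀ z : An.Pts X, z.pt ∈ X.basicOpen h →
      evAt z W f = evAt z U a / evAt z U h ^ k := by
    intro z hz
    have hzU : z.pt ∈ U := hle hz
    have hzW : z.pt ∈ W := hh hz
    have hne : z.ev U hzU h ≠ 0 := by rw [ev_ne_zero_iff]; exact hz
    rw [evAt_of_mem hzU, evAt_of_mem hzU, evAt_of_mem hzW]
    rw [eq_div_iff (pow_ne_zero k hne)]
    have e := congrArg (fun s => z.ev (X.basicOpen h) hz s) ha
    simp only [hres, ev_mul, ev_pow, ev_res] at e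
    exact e
  obtain ⟨P, rfl⟩ := ht a
  obtain ⟨Q, rfl⟩ := ht h
  have hne : MvPolynomial.eval (tau U t y) Q ≠ 0 := by
    rw [← evAt_eval₂ U t hyU, evAt_of_mem hyU, ev_ne_zero_iff]; exact hx
  refine ⟨fun w => MvPolynomial.eval w P / MvPolynomial.eval w Q ^ k, ?_, ?_⟩
  · filter_upwards [(differentiable_eval Q).continuous.continuousAt.eventually_ne hne] with w hw
    simp only [div_eq_mul_inv]
    exact DifferentiableAt.fun_mul (differentiable_eval P w)
      (DifferentiableAt.fun_inv ((differentiable_eval Q w).fun_pow k) (pow_ne_zero k hw))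
  · filter_upwards [(An.Pts.isOpen_preimage_pt (X.basicOpen
      (MvPolynomial.eval₂Hom (strU U) t Q))).mem_nhds hx] with z hz
    rw [key z hz, evAt_eval₂ U t (hle hz), evAt_eval₂ U t (hle hz)]

/-- Germs of holomorphic functions in a chart. -/
lemma exists_holAt {g : An.Pts X → ℂ} {y : An.Pts X} (hy : y.pt ∈ U) (hg : ChartAt g y) :
    ∃ H, HolAt H (tau U t y) ∧ ∀ᶠ z in 𝓝 y, g z = H (tau U t z) := by
  obtain ⟨W, m, s, G, hyW, hG, he⟩ := hg
  choose K hK hKe using fun j => exists_holAt_section hUa ht W (s j) hy hyW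
  have h1 : (fun j => K j (tau U t y)) = fun j => evAt y W (s j) :=
    funext fun j => ((hKe j).self_of_nhds).symm
  have h2 : ∀ᶠ w in 𝓝 (tau U t y), ∀ j, DifferentiableAt ℂ (K j) w := eventually_all.2 hK
  have h3 : ContinuousAt (fun w j => K j w) (tau U t y) :=
    continuousAt_pi.2 fun j => (hK j).self_of_nhds.continuousAt
  refine ⟨fun w => G (fun j => K j w), ?_, ?_⟩
  · have h4 : ∀ᶠ w in 𝓝 (tau U t y), DifferentiableAt ℂ G (fun j => K j w) := by
      refine h3.eventually ?_
      change ∀ᶠ c in 𝓝 (fun j => K j (tau U t y)), _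
      rw [h1]
      exact hG
    filter_upwards [h2, h4] with w hw hw'
    exact DifferentiableAt.comp (g := G) (f := fun w j => K j w) w hw' (differentiableAt_pi.2 hw)
  · filter_upwards [he, eventually_all.2 hKe] with z h5 h6
    rw [h5]
    exact congrArg G (funext h6)

omit hUa ht in
/-- Conversely `H ∘ τ` is holomorphic. -/
lemma chartAt_comp_tau {y : An.Pts X} (hy : y.pt ∈ U) {H : (Fin n → ℂ) → ℂ}
    (hH : HolAt H (tau U t y)) : ChartAt (fun z => H (tau U t z)) y :=
  ⟨U, n, t, H, hy, hH, Eventually.of_forall fun _ => rfl⟩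

end Groth.Agent.Gaga.H985.Chart
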