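import Groth.Agent.Gaga.H976.TM3

/-!
# Kernels over a coherent sheaf of rings

`R` a sheaf of rings on a space `T`.  `CohAt R x`: near `x` the relations between finitely many
vectors of sections are finitely generated.  Then kernels of morphisms between sheaves of modules
of finite presentation near `x` are of finite presentation near `x`.
-/

set_option autoImplicit false

universe u

open CategoryTheory CategoryTheory.Limits Opposite TopologicalSpace

namespace Groth.Agent.Gaga.H985.CohMod

open Groth.Agent.Gaga.H976.TM0 Groth.Agent.Gaga.H976.TM1 Groth.Agent.Gaga.H976.TM2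
open Groth.Agent.Gaga.H976.TM3

variable {T : TopCat.{u}} {R : Sheaf (Opens.grothendieckTopology T) RingCat.{u}}

variable (R) in
/-- Near `x`, relations between finitely many vectors are locally finitely generated. -/
def CohAt (x : T) : Prop :=
  ∀ (W : Opens T), x ∈ W → ∀ (a b : ℕ) (h : Fin a → Fin b → R.obj.obj (op W)),
    ∃ (V : Opens T) (hV : V ≤ W), x ∈ V ∧ ∃ (s : ℕ) (g : Fin s → Fin a → R.obj.obj (op V)),
      (∀ k i, ∑ j, g k j * rr hV (h j i) = 0) ∧
      ∀ (V' : Opens T) (h' : V' ≤ V) (c : Fin a → R.obj.obj (op V')),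
        (∀ i, ∑ j, c j * rr (h'.trans hV) (h j i) = 0) → ∀ y ∈ V',
          ∃ (V'' : Opens T) (h'' : V'' ≤ V'), y ∈ V'' ∧ ∃ d : Fin s → R.obj.obj (op V''),
            ∀ j, rr h'' (c j) = ∑ k, d k * rr (h''.trans h') (g k j)

lemma exists_common {ι : Type*} [Finite ι] (x : T) (V : ι → Opens T) (hx : ∀ i, x ∈ V i) :
    ∃ V' : Opens T, x ∈ V' ∧ ∀ i, V' ≤ V i :=
  ⟨⟨⋂ i, V i, isOpen_iInter_of_finite fun i => (V i).2⟩, Set.mem_iInter.2 hx,
    fun i => Set.iInter_subset _ i⟩

/-- Restriction of generators. -/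
lemma LGen.restrict {N : SheafOfModules.{u} R} {W V : Opens T} (hV : V ≤ W) {n : ℕ}
    {s : Fin n → N.val.obj (op W)} (h : LGen N W s) : LGen N V fun j => rs N hV (s j) := by
  intro V' hV' t x hx
  obtain ⟨V'', h', hx', c, hc⟩ := h V' (hV'.trans hV) t x hx
  refine ⟨V'', h', hx', c, ?_⟩
  rw [hc]
  simp only [rs_rs]

/-- Restriction of relations. -/
lemma LRel.restrict {N : SheafOfModules.{u} R} {W V : Opens T} (hV : V ≤ W) {n m : ℕ}
    {s : Fin n → N.val.obj (op W)} {r : Fin m → Fin n → R.obj.obj (op W)} (h : LRel N W s r) :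
    LRel N V (fun j => rs N hV (s j)) (fun k j => rr hV (r k j)) := by
  constructor
  · intro k
    have h1 := congrArg (rs N hV) (h.1 k)
    rw [map_sum, map_zero] at h1
    rw [← h1]
    exact Finset.sum_congr rfl fun j _ => (rs_smul N hV _ _).symm
  · intro V' hV' c hc x hx
    simp only [rs_rs] at hc
    obtain ⟨V'', h', hx', d, hd⟩ := h.2 V' (hV'.trans hV) c hc x hx
    refine ⟨V'', h', hx', d, fun j => ?_⟩
    rw [hd j]
    simp only [rr_rr]

/-- Relations between sections of a finitely presented module are finitely generated. -/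
theorem exists_lrel {x : T} (hR : CohAt R x) {N : SheafOfModules.{u} R} {W : Opens T} (hx : x ∈ W)
    {n m : ℕ} {s : Fin n → N.val.obj (op W)} {r : Fin m → Fin n → R.obj.obj (op W)}
    (hg : LGen N W s) (hr : LRel N W s r) {p : ℕ} (u : Fin p → N.val.obj (op W)) :
    ∃ (V : Opens T) (hV : V ≤ W), x ∈ V ∧ ∃ (q : ℕ) (ρ : Fin q → Fin p → R.obj.obj (op V)),
      LRel N V (fun k => rs N hV (u k)) ρ := by
  classical
  choose V1 hV1 hx1 c1 hc1 using fun k => hg W le_rfl (u k) x hx
  obtain ⟨V2', hx2', hV2'⟩ := exists_common x V1 hx1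
  obtain ⟨V2, hx2, hV2W, hV2⟩ : ∃ V2 : Opens T, x ∈ V2 ∧ V2 ≤ W ∧ ∀ k, V2 ≤ V1 k :=
    ⟨V2' ⊓ W, ⟨hx2', hx⟩, inf_le_right, fun k => inf_le_left.trans (hV2' k)⟩
  set a : Fin p → Fin n → R.obj.obj (op V2) := fun k j => rr (hV2 k) (c1 k j) with ha
  have hu : ∀ k, rs N hV2W (u k) = ∑ j, a k j • rs N hV2W (s j) := by
    intro k
    have h1 := congrArg (rs N (hV2 k)) (hc1 k)
    rw [rs_rs, map_sum] at h1
    refine h1.trans (Finset.sum_congr rfl fun j _ => ?_)
    rw [rs_smul, rs_rs]
  let M : Fin (p + m) → Fin n → R.obj.obj (op V2) :=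
    fun j i => Fin.addCases (fun j => a j i) (fun l => - rr hV2W (r l i)) j
  have hM1 : ∀ j i, M (Fin.castAdd m j) i = a j i := fun j i => Fin.addCases_left j
  have hM2 : ∀ l i, M (Fin.natAdd p l) i = - rr hV2W (r l i) := fun l i => Fin.addCases_right l
  obtain ⟨V, hV, hxV, q, g, hg1, hg2⟩ := hR V2 hx2 (p + m) n M
  refine ⟨V, hV.trans hV2W, hxV, q, fun k j => g k (Fin.castAdd m j), ?_, ?_⟩
  · intro k
    have h1 : ∀ j : Fin p, rs N (hV.trans hV2W) (u j) =
        ∑ i, rr hV (a j i) • rs N (hV.trans hV2W) (s i) := by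
      intro j
      have h2 := congrArg (rs N hV) (hu j)
      rw [rs_rs, map_sum] at h2
      refine h2.trans (Finset.sum_congr rfl fun i _ => ?_)
      rw [rs_smul, rs_rs]
    have h3 : ∀ i, ∑ j : Fin p, g k (Fin.castAdd m j) * rr hV (a j i) =
        ∑ l : Fin m, g k (Fin.natAdd p l) * rr (hV.trans hV2W) (r l i) := by
      intro i
      have h4 := hg1 k i
      rw [Fin.sum_univ_add] at h4
      simp only [hM1, hM2, map_neg, mul_neg, Finset.sum_neg_distrib, rr_rr] at h4
      exact add_neg_eq_zero.1 h4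
    calc ∑ j : Fin p, g k (Fin.castAdd m j) • rs N (hV.trans hV2W) (u j)
        = ∑ j : Fin p, ∑ i, (g k (Fin.castAdd m j) * rr hV (a j i)) •
            rs N (hV.trans hV2W) (s i) := by
          refine Finset.sum_congr rfl fun j _ => ?_
          rw [h1 j, Finset.smul_sum]
          exact Finset.sum_congr rfl fun i _ => (mul_smul _ _ _).symm
      _ = ∑ i, (∑ j : Fin p, g k (Fin.castAdd m j) * rr hV (a j i)) •
            rs N (hV.trans hV2W) (s i) := by
          rw [Finset.sum_comm]
          exact Finset.sum_congr rfl fun i _ => (Finset.sum_smul).symm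
      _ = ∑ i, ∑ l : Fin m, g k (Fin.natAdd p l) •
            (rr (hV.trans hV2W) (r l i) • rs N (hV.trans hV2W) (s i)) := by
          refine Finset.sum_congr rfl fun i _ => ?_
          rw [h3 i, Finset.sum_smul]
          exact Finset.sum_congr rfl fun l _ => mul_smul _ _ _
      _ = ∑ l : Fin m, g k (Fin.natAdd p l) • ∑ i,
            (rr (hV.trans hV2W) (r l i) • rs N (hV.trans hV2W) (s i)) := by
          rw [Finset.sum_comm]
          exact Finset.sum_congr rfl fun l _ => (Finset.smul_sum).symm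
      _ = 0 := by
          refine Finset.sum_eq_zero fun l _ => ?_
          rw [(LRel.restrict (hV.trans hV2W) hr).1 l, smul_zero]
  · intro V' hV' c hc y hy
    have hVW : V' ≤ W := hV'.trans (hV.trans hV2W)
    have h1 : ∀ j : Fin p, rs N hVW (u j) =
        ∑ i, rr (hV'.trans hV) (a j i) • rs N hVW (s i) := by
      intro j
      have h2 := congrArg (rs N (hV'.trans hV)) (hu j)
      rw [rs_rs, map_sum] at h2
      refine h2.trans (Finset.sum_congr rfl fun i _ => ?_)
      rw [rs_smul, rs_rs]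
    have h2 : ∑ i, (∑ j : Fin p, c j * rr (hV'.trans hV) (a j i)) • rs N hVW (s i) = 0 := by
      rw [← hc]
      simp only [rs_rs]
      rw [Finset.sum_congr rfl fun i _ => Finset.sum_smul, Finset.sum_comm]
      refine Finset.sum_congr rfl fun j _ => ?_
      rw [h1 j, Finset.smul_sum]
      exact Finset.sum_congr rfl fun i _ => mul_smul _ _ _
    obtain ⟨V3, hV3, hy3, d, hd⟩ := hr.2 V' hVW _ h2 y hy
    let c' : Fin (p + m) → R.obj.obj (op V3) :=
      fun j => Fin.addCases (fun j => rr hV3 (c j)) (fun l => d l) j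
    have hc'1 : ∀ j, c' (Fin.castAdd m j) = rr hV3 (c j) := fun j => Fin.addCases_left j
    have hc'2 : ∀ l, c' (Fin.natAdd p l) = d l := fun l => Fin.addCases_right l
    obtain ⟨V4, hV4, hy4, e, he⟩ := hg2 V3 (hV3.trans hV') c' (fun i => by
      rw [Fin.sum_univ_add]
      simp only [hc'1, hc'2, hM1, hM2, map_neg, mul_neg, Finset.sum_neg_distrib, rr_rr]
      have h5 := hd i
      rw [map_sum] at h5
      simp only [map_mul, rr_rr] at h5
      rw [h5, add_neg_cancel]) y hy3
    refine ⟨V4, hV4.trans hV3, hy4, e, fun j => ?_⟩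
    have h6 := he (Fin.castAdd m j)
    rw [hc'1, rr_rr] at h6
    exact h6

lemma app_rs {M N : SheafOfModules.{u} R} (f : M ⟶ N) {U V : Opens T} (h : V ≤ U)
    (t : M.val.obj (op U)) : f.val.app (op V) (rs M h t) = rs N h (f.val.app (op U) t) :=
  app_res f (homOfLE h).op t

/-- Generators of the kernel from generators of the relations of the images. -/
theorem exists_lgen_kernel {M N : SheafOfModules.{u} R} (f : M ⟶ N) {W V : Opens T} (hV : V ≤ W)
    {n q : ℕ} {s : Fin n → M.val.obj (op W)} (hg : LGen M W s)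
    {ρ : Fin q → Fin n → R.obj.obj (op V)}
    (hρ : LRel N V (fun j => rs N hV (f.val.app (op W) (s j))) ρ) :
    ∃ w : Fin q → (kernel f).val.obj (op V), LGen (kernel f) V w ∧
      ∀ k, (kernel.ι f).val.app (op V) (w k) = ∑ j, ρ k j • rs M hV (s j) := by
  have hι : ∀ V : Opens T, Function.Injective ((kernel.ι f).val.app (op V)) := fun V =>
    (mono_iff (kernel.ι f)).1 inferInstance (op V)
  have h0 : ∀ k, f.val.app (op V) (∑ j, ρ k j • rs M hV (s j)) = 0 := by
    intro k
    rw [app_sum, ← hρ.1 k]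
    refine Finset.sum_congr rfl fun j _ => ?_
    rw [app_smul]
    exact congrArg (fun t => ρ k j • t) (app_rs f hV (s j))
  choose w hw using fun k => exists_kernel f (op V) _ (h0 k)
  refine ⟨w, ?_, hw⟩
  intro V' hV' t y hy
  obtain ⟨V1, hV1, hy1, c, hc⟩ := hg V' (hV'.trans hV) ((kernel.ι f).val.app (op V') t) y hy
  have h1 : ∑ j, c j • rs N (hV1.trans hV') (rs N hV (f.val.app (op W) (s j))) = 0 := by
    have h2 : f.val.app (op V1) (rs M hV1 ((kernel.ι f).val.app (op V') t)) = 0 := by
      rw [app_rs]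
      have h3 : f.val.app (op V') ((kernel.ι f).val.app (op V') t) =
        (kernel.ι f ≫ f).val.app (op V') t := rfl
      rw [h3, kernel.condition]
      exact map_zero (rs N hV1)
    rw [hc, app_sum] at h2
    refine Eq.trans ?_ h2
    refine Finset.sum_congr rfl fun j _ => ?_
    rw [app_smul, rs_rs]
    exact congrArg (fun t => c j • t) (app_rs f _ (s j)).symm
  obtain ⟨V2, hV2, hy2, d, hd⟩ := hρ.2 V1 (hV1.trans hV') c h1 y hy1
  refine ⟨V2, hV2.trans hV1, hy2, d, ?_⟩
  apply hι
  have h4 := congrArg (rs M hV2) hc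
  rw [rs_rs, map_sum] at h4
  rw [app_rs, h4, app_sum]
  have h5 : ∀ k, (show M.val.obj (op V2) from
      (kernel.ι f).val.app (op V2) (d k • rs (kernel f) ((hV2.trans hV1).trans hV') (w k))) =
      ∑ j, (d k * rr ((hV2.trans hV1).trans hV') (ρ k j)) •
        rs M (((hV2.trans hV1).trans hV').trans hV) (s j) := by
    intro k
    rw [app_smul, app_rs, hw, map_sum, Finset.smul_sum]
    refine Finset.sum_congr rfl fun j _ => ?_
    rw [rs_smul, rs_rs, mul_smul]
  rw [Finset.sum_congr rfl fun k _ => h5 k, Finset.sum_comm]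
  refine Finset.sum_congr rfl fun j _ => ?_
  rw [rs_smul, rs_rs, hd j, Finset.sum_smul]

/-- Relations can be tested after a monomorphism. -/
theorem lrel_of_mono {K M : SheafOfModules.{u} R} (i : K ⟶ M) [Mono i] {V : Opens T} {n m : ℕ}
    {w : Fin n → K.val.obj (op V)} {r : Fin m → Fin n → R.obj.obj (op V)}
    (h : LRel M V (fun k => i.val.app (op V) (w k)) r) : LRel K V w r := by
  have hι : ∀ V : Opens T, Function.Injective (i.val.app (op V)) := fun V =>
    (mono_iff i).1 inferInstance (op V)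
  constructor
  · intro k
    apply hι
    rw [app_sum]
    refine Eq.trans ?_ ((h.1 k).trans (map_zero (i.val.app (op V)).hom).symm)
    exact Finset.sum_congr rfl fun j _ => app_smul i _ _
  · intro V' hV' c hc y hy
    refine h.2 V' hV' c ?_ y hy
    have h1 := congrArg (fun t => (show M.val.obj (op V') from i.val.app (op V') t)) hc
    refine Eq.trans ?_ (h1.trans (map_zero (i.val.app (op V')).hom))
    refine Eq.trans ?_ (app_sum i _ _).symm
    refine Finset.sum_congr rfl fun j _ => ?_
    rw [← app_rs]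
    exact (app_smul i _ _).symm

/-- The kernel of a morphism from a module of finite type to a module of finite presentation is
of finite type. -/
theorem ftAt_kernel {x : T} (hR : CohAt R x) {M N : SheafOfModules.{u} R} (f : M ⟶ N)
    (hM : FTAt M x) (hN : FPAt N x) : FTAt (kernel f) x := by
  obtain ⟨W1, hx1, n, s, hs⟩ := hM
  obtain ⟨W2, hx2, p, m, t, r, ht, hr⟩ := hN
  obtain ⟨V, hV, hxV, q, ρ, hρ⟩ := exists_lrel hR (W := W1 ⊓ W2) ⟨hx1, hx2⟩
    (LGen.restrict inf_le_right ht) (LRel.restrict inf_le_right hr)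
    (fun j => rs N inf_le_left (f.val.app (op W1) (s j)))
  simp only [rs_rs] at hρ
  obtain ⟨w, hw, -⟩ := exists_lgen_kernel f (hV.trans inf_le_left) hs hρ
  exact ⟨V, hxV, q, w, hw⟩

/-- A submodule of finite type of a module of finite presentation is of finite presentation. -/
theorem fpAt_of_mono {x : T} (hR : CohAt R x) {K M : SheafOfModules.{u} R} (i : K ⟶ M) [Mono i]
    (hK : FTAt K x) (hM : FPAt M x) : FPAt K x := by
  obtain ⟨W1, hx1, n, s, hs⟩ := hK
  obtain ⟨W2, hx2, p, m, t, r, ht, hr⟩ := hM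
  obtain ⟨V, hV, hxV, q, ρ, hρ⟩ := exists_lrel hR (W := W1 ⊓ W2) ⟨hx1, hx2⟩
    (LGen.restrict inf_le_right ht) (LRel.restrict inf_le_right hr)
    (fun j => rs M inf_le_left (i.val.app (op W1) (s j)))
  simp only [rs_rs] at hρ
  refine ⟨V, hxV, n, q, _, ρ, LGen.restrict (hV.trans inf_le_left) hs, lrel_of_mono i ?_⟩
  simpa only [app_rs] using hρ

/-- **Kernels of morphisms between modules of finite presentation are of finite presentation.** -/
theorem fpAt_kernel {x : T} (hR : CohAt R x) {M N : SheafOfModules.{u} R} (f : M ⟶ N)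
    (hM : FPAt M x) (hN : FPAt N x) : FPAt (kernel f) x :=
  fpAt_of_mono hR (kernel.ι f) (ftAt_kernel hR f
    (by obtain ⟨W, hx, n, m, s, r, hs, -⟩ := hM; exact ⟨W, hx, n, s, hs⟩) hN) hM

theorem isFinitePresentation_kernel (hR : ∀ x : T, CohAt R x) {M N : SheafOfModules.{u} R}
    (f : M ⟶ N) (hM : M.IsFinitePresentation) (hN : N.IsFinitePresentation) :
    (kernel f).IsFinitePresentation := by
  rw [isFinitePresentation_iff] at hM hN ⊢
  exact fun x => fpAt_kernel (hR x) f (hM x) (hN x)

theorem isFinitePresentation_of_mono (hR : ∀ x : T, CohAt R x) {K M : SheafOfModules.{u} R}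
    (i : K ⟶ M) [Mono i] (hK : K.IsFiniteType) (hM : M.IsFinitePresentation) :
    K.IsFinitePresentation := by
  rw [isFinitePresentation_iff] at hM ⊢
  rw [isFiniteType_iff] at hK
  exact fun x => fpAt_of_mono (hR x) i (hK x) (hM x)

end Groth.Agent.Gaga.H985.CohMod
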