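import Groth.Agent.Gaga.H985.OkaLocal
import Groth.Agent.Gaga.H145.Hadamard
import Mathlib.Order.Filter.Germ.Basic
import Mathlib.Order.Filter.Ring
import Mathlib.RingTheory.LocalRing.MaximalIdeal.Basic
import Mathlib.RingTheory.LocalRing.RingHom.Basic
import Mathlib.RingTheory.Ideal.Quotient.Basic
import Mathlib.RingTheory.Ideal.BigOperators
import Mathlib.Algebra.MvPolynomial.Eval
import Mathlib.Analysis.Calculus.Deriv.Inv

/-!
# The ring of germs of holomorphic functions at a point of `ℂⁿ`
-/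

set_option autoImplicit false

open Topology Filter Groth.Agent.Gaga.H985.OkaLocal

noncomputable section

namespace Groth.Agent.Gaga.H985.GermRing

variable {n : ℕ}

/-- Germs at `a` of functions which are complex differentiable near `a`. -/
def On (a : Fin n → ℂ) : Subring ((𝓝 a).Germ ℂ) where
  carrier := {g | ∃ c : (Fin n → ℂ) → ℂ, HolAt c a ∧ (c : (𝓝 a).Germ ℂ) = g}
  zero_mem' := ⟨fun _ => 0, holAt_const 0 a, rfl⟩
  one_mem' := ⟨fun _ => 1, holAt_const 1 a, rfl⟩
  add_mem' := by
    rintro _ _ ⟨c, hc, rfl⟩ ⟨d, hd, rfl⟩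
    exact ⟨fun z => c z + d z, hc.add hd, rfl⟩
  mul_mem' := by
    rintro _ _ ⟨c, hc, rfl⟩ ⟨d, hd, rfl⟩
    exact ⟨fun z => c z * d z, hc.mul hd, rfl⟩
  neg_mem' := by
    rintro _ ⟨c, hc, rfl⟩
    exact ⟨fun z => - c z, hc.neg, rfl⟩

variable {a : Fin n → ℂ}

/-- The germ of a holomorphic function. -/
def mkG (c : (Fin n → ℂ) → ℂ) (hc : HolAt c a) : On a := ⟨(c : (𝓝 a).Germ ℂ), c, hc, rfl⟩

lemma exists_mkG (g : On a) : ∃ (c : (Fin n → ℂ) → ℂ) (hc : HolAt c a), mkG c hc = g := by
  obtain ⟨g, c, hc, rfl⟩ := g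
  exact ⟨c, hc, rfl⟩

lemma mkG_eq_iff {c d : (Fin n → ℂ) → ℂ} (hc : HolAt c a) (hd : HolAt d a) :
    mkG c hc = mkG d hd ↔ c =ᶠ[𝓝 a] d := by
  rw [Subtype.ext_iff]
  exact Germ.coe_eq

lemma mkG_add {c d : (Fin n → ℂ) → ℂ} (hc : HolAt c a) (hd : HolAt d a) :
    mkG c hc + mkG d hd = mkG (fun z => c z + d z) (hc.add hd) := rfl

lemma mkG_mul {c d : (Fin n → ℂ) → ℂ} (hc : HolAt c a) (hd : HolAt d a) :
    mkG c hc * mkG d hd = mkG (fun z => c z * d z) (hc.mul hd) := rfl

lemma mkG_sum {ι : Type*} (s : Finset ι) (c : ι → (Fin n → ℂ) → ℂ) (hc : ∀ i, HolAt (c i) a) :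
    ∑ i ∈ s, mkG (c i) (hc i) = mkG (fun z => ∑ i ∈ s, c i z) (holAt_sum s fun i _ => hc i) := by
  classical
  induction s using Finset.induction_on with
  | empty => simp only [Finset.sum_empty]; rfl
  | insert i s hi ih =>
    rw [Finset.sum_insert hi, ih, mkG_add]
    simp only [Finset.sum_insert hi]

/-- Value at the point. -/
def evG (a : Fin n → ℂ) : On a →+* ℂ where
  toFun g := (exists_mkG g).choose a
  map_one' := by
    have h := (exists_mkG (1 : On a)).choose_spec.choose_spec
    exact ((mkG_eq_iff (exists_mkG (1 : On a)).choose_spec.choose (holAt_const 1 a)).1 h).eq_of_nhds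
  map_zero' := by
    have h := (exists_mkG (0 : On a)).choose_spec.choose_spec
    exact ((mkG_eq_iff (exists_mkG (0 : On a)).choose_spec.choose (holAt_const 0 a)).1 h).eq_of_nhds
  map_mul' f g := by
    have hf := (exists_mkG f).choose_spec.choose_spec
    have hg := (exists_mkG g).choose_spec.choose_spec
    have hfg := (exists_mkG (f * g)).choose_spec.choose_spec
    have h1 : mkG _ (exists_mkG (f * g)).choose_spec.choose = mkG _
        ((exists_mkG f).choose_spec.choose.mul (exists_mkG g).choose_spec.choose) := by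
      rw [hfg, ← mkG_mul (exists_mkG f).choose_spec.choose (exists_mkG g).choose_spec.choose,
        hf, hg]
    exact ((mkG_eq_iff _ _).1 h1).eq_of_nhds
  map_add' f g := by
    have hf := (exists_mkG f).choose_spec.choose_spec
    have hg := (exists_mkG g).choose_spec.choose_spec
    have hfg := (exists_mkG (f + g)).choose_spec.choose_spec
    have h1 : mkG _ (exists_mkG (f + g)).choose_spec.choose = mkG _
        ((exists_mkG f).choose_spec.choose.add (exists_mkG g).choose_spec.choose) := by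
      rw [hfg, ← mkG_add (exists_mkG f).choose_spec.choose (exists_mkG g).choose_spec.choose,
        hf, hg]
    exact ((mkG_eq_iff _ _).1 h1).eq_of_nhds

lemma evG_mkG (c : (Fin n → ℂ) → ℂ) (hc : HolAt c a) : evG a (mkG c hc) = c a :=
  ((mkG_eq_iff _ hc).1 (exists_mkG (mkG c hc)).choose_spec.choose_spec).eq_of_nhds

lemma holAt_inv {c : (Fin n → ℂ) → ℂ} (hc : HolAt c a) (h0 : c a ≠ 0) :
    HolAt (fun z => (c z)⁻¹) a := by
  filter_upwards [hc, hc.self_of_nhds.continuousAt.eventually_ne h0] with z hz hz'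
  exact hz.fun_inv hz'

lemma isUnit_iff (g : On a) : IsUnit g ↔ evG a g ≠ 0 := by
  constructor
  · intro h
    exact (h.map (evG a)).ne_zero
  · intro h
    obtain ⟨c, hc, rfl⟩ := exists_mkG g
    rw [evG_mkG] at h
    refine IsUnit.of_mul_eq_one (mkG _ (holAt_inv hc h)) ?_
    rw [mkG_mul]
    refine (mkG_eq_iff _ (holAt_const 1 a)).2 ?_
    filter_upwards [hc.self_of_nhds.continuousAt.eventually_ne h] with z hz
    exact mul_inv_cancel₀ hz

instance : IsLocalHom (evG a) := ⟨fun g hg => (isUnit_iff g).2 hg.ne_zero⟩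

instance : IsLocalRing (On a) := RingHom.domain_isLocalRing (evG a)

lemma mem_maximalIdeal_iff (g : On a) : g ∈ IsLocalRing.maximalIdeal (On a) ↔ evG a g = 0 := by
  rw [IsLocalRing.mem_maximalIdeal, mem_nonunits_iff, isUnit_iff, not_not]

/-- Constants. -/
def cG (a : Fin n → ℂ) (c : ℂ) : On a := mkG (fun _ => c) (holAt_const c a)

lemma holAt_xi (a : Fin n → ℂ) (i : Fin n) : HolAt (fun w => w i - a i) a :=
  Eventually.of_forall fun w =>
    (((ContinuousLinearMap.proj (R := ℂ) (φ := fun _ : Fin n => ℂ) i).differentiable w).sub_const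
      (a i))

/-- The coordinates, centered at `a`. -/
def xi (a : Fin n → ℂ) (i : Fin n) : On a := mkG (fun w => w i - a i) (holAt_xi a i)

lemma hadamard (g : On a) : ∃ h : Fin n → On a, g = cG a (evG a g) + ∑ i, xi a i * h i := by
  obtain ⟨c, hc, rfl⟩ := exists_mkG g
  obtain ⟨V, hV, haV, hd⟩ := hc.exists_open
  obtain ⟨V', -, hV', haV', H, hH, he⟩ := Groth.Agent.Gaga.H145.Hadamard.hadamard hV hd haV
  refine ⟨fun i => mkG (H i) (holAt_of_differentiableOn hV' (hH i) haV'), ?_⟩
  rw [evG_mkG]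
  have h1 : ∀ i, xi a i * mkG (H i) (holAt_of_differentiableOn hV' (hH i) haV') =
      mkG (fun w => (w i - a i) * H i w) (HolAt.mul (holAt_xi a i)
        (holAt_of_differentiableOn hV' (hH i) haV')) := fun i => rfl
  simp only [h1]
  rw [mkG_sum, cG, mkG_add, mkG_eq_iff]
  filter_upwards [hV'.mem_nhds haV'] with w hw
  exact he w hw

lemma evG_xi (i : Fin n) : evG a (xi a i) = 0 := by rw [xi, evG_mkG]; simp

lemma maximalIdeal_eq : IsLocalRing.maximalIdeal (On a) = Ideal.span (Set.range (xi a)) := by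
  apply le_antisymm
  · intro g hg
    rw [mem_maximalIdeal_iff] at hg
    obtain ⟨h, e⟩ := hadamard g
    rw [e, hg]
    have h0 : cG a 0 = 0 := rfl
    rw [h0, zero_add]
    exact Ideal.sum_mem _ fun i _ => Ideal.mul_mem_right _ _ (Ideal.subset_span ⟨i, rfl⟩)
  · rw [Ideal.span_le]
    rintro _ ⟨i, rfl⟩
    exact (mem_maximalIdeal_iff _).2 (evG_xi i)

lemma differentiable_eval (P : MvPolynomial (Fin n) ℂ) :
    Differentiable ℂ (fun w : Fin n → ℂ => MvPolynomial.eval w P) := by
  induction P using MvPolynomial.induction_on with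
  | C c => simp
  | add p q hp hq => simpa using hp.fun_add hq
  | mul_X p i hp =>
    simpa using hp.fun_mul (ContinuousLinearMap.proj (R := ℂ) (φ := fun _ : Fin n => ℂ)
      i).differentiable

lemma holAt_eval (P : MvPolynomial (Fin n) ℂ) (w : Fin n → ℂ) :
    HolAt (fun w : Fin n → ℂ => MvPolynomial.eval w P) w :=
  Eventually.of_forall fun z => differentiable_eval P z

/-- Polynomials as germs. -/
def polyG (a : Fin n → ℂ) : MvPolynomial (Fin n) ℂ →+* On a where
  toFun P := mkG (fun w => MvPolynomial.eval w P) (holAt_eval P a)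
  map_one' := (mkG_eq_iff _ (holAt_const 1 a)).2 (Eventually.of_forall fun w => by simp)
  map_zero' := (mkG_eq_iff _ (holAt_const 0 a)).2 (Eventually.of_forall fun w => by simp)
  map_mul' P Q := (mkG_eq_iff _ ((holAt_eval P a).mul (holAt_eval Q a))).2
    (Eventually.of_forall fun w => by simp)
  map_add' P Q := (mkG_eq_iff _ ((holAt_eval P a).add (holAt_eval Q a))).2
    (Eventually.of_forall fun w => by simp)

lemma evG_polyG (P : MvPolynomial (Fin n) ℂ) : evG a (polyG a P) = MvPolynomial.eval a P :=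
  evG_mkG _ (holAt_eval P a)

lemma polyG_C (c : ℂ) : polyG a (MvPolynomial.C c) = cG a c :=
  (mkG_eq_iff (holAt_eval _ a) (holAt_const c a)).2 (Eventually.of_forall fun w => by simp)

lemma polyG_X_sub (i : Fin n) :
    polyG a (MvPolynomial.X i - MvPolynomial.C (a i)) = xi a i :=
  (mkG_eq_iff (holAt_eval _ a) (holAt_xi a i)).2 (Eventually.of_forall fun w => by simp)

/-- Germs are polynomials modulo every power of the maximal ideal. -/
lemma exists_poly (k : ℕ) (g : On a) :
    ∃ P : MvPolynomial (Fin n) ℂ, g - polyG a P ∈ IsLocalRing.maximalIdeal (On a) ^ k := by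
  induction k generalizing g with
  | zero => exact ⟨0, by rw [pow_zero, Ideal.one_eq_top]; trivial⟩
  | succ k ih =>
    obtain ⟨h, e⟩ := hadamard g
    choose P hP using fun i => ih (h i)
    refine ⟨MvPolynomial.C (evG a g) + ∑ i, (MvPolynomial.X i - MvPolynomial.C (a i)) * P i, ?_⟩
    have h1 : g - polyG a (MvPolynomial.C (evG a g) +
        ∑ i, (MvPolynomial.X i - MvPolynomial.C (a i)) * P i) =
        ∑ i, xi a i * (h i - polyG a (P i)) := by
      simp only [map_add, map_sum, map_mul, polyG_C, polyG_X_sub, mul_sub, Finset.sum_sub_distrib]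
      nth_rewrite 1 [e]
      ring
    rw [h1, pow_succ']
    exact Ideal.sum_mem _ fun i _ => Ideal.mul_mem_mul
      ((mem_maximalIdeal_iff _).2 (evG_xi i)) (hP i)

end Groth.Agent.Gaga.H985.GermRing
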